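import Mathlib
import Cfsg.Agent.Lib.Classical.Symp.InvolChar2
import Cfsg.Agent.Lib.Classical.Orth.Classes
import Cfsg.Agent.Lib.Classical.Orth.DicksonRank
import Cfsg.Agent.S0750
import Cfsg.Agent.Lib.Linalg.Bridge

/-!
# Involutions of orthogonal groups in characteristic two

`t` an isometry of `Q` with `t^2 = 1`, `N = t - 1`: on `U = Im N` we have `Q(u) = g(u, u)` for the form `g` of
`Lib/Classical/Symp/InvolChar2`. So an isometry of forms preserves `Q`, and Witt's lemma for `Q` shows that the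
conjugacy class of `t` in `O(Q)` is determined by `dim U` and the type of `g`.
-/

set_option autoImplicit false

namespace Cfsg.Agent.Lib.Classical.Witt.InvolChar2

open Module QuadraticMap Matrix
open Cfsg.Agent.Lib.Classical.Symp.InvolChar2

section Abstract

variable {F V : Type*} [Field F] [AddCommGroup V] [Module F V]
variable {Q : QuadraticForm F V}

/-- The relevant structure for `N = t - 1`. -/
structure IsQuadN (Q : QuadraticForm F V) (N : V →ₗ[F] V) : Prop where
  adj : IsSqZeroAdj (polarBilin Q) N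
  val : ∀ x, Q (N x) = polar Q x (N x)

variable [Finite F] [CharP F 2] [FiniteDimensional F V]

omit [Finite F] [CharP F 2] [FiniteDimensional F V] in
/-- Values of `Q` on the image. -/
theorem Q_eq_form {N : V →ₗ[F] V} (h : IsQuadN Q N) {g : LinearMap.BilinForm F (LinearMap.range N)}
    (hg : ∀ (x : V) (u : LinearMap.range N), g (N.rangeRestrict x) u = polarBilin Q x u)
    (u : LinearMap.range N) : Q (u : V) = g u u := by
  obtain ⟨x, rfl⟩ := LinearMap.surjective_rangeRestrict N u
  rw [hg]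
  exact h.val x

/-- The polar form in characteristic two is alternating. -/
theorem polar_isAlt (Q : QuadraticForm F V) : (polarBilin Q).IsAlt := by
  intro x
  rw [polarBilin_apply_apply, Cfsg.Agent.Lib.Classical.Witt.Hyp.polar_self, two_eq_zero' F, zero_mul]

/-- Conjugacy in the orthogonal group from the rank and the type. -/
theorem conj_quad_of_type (hQ : (polarBilin Q).Nondegenerate)
    {N₁ N₂ : V →ₗ[F] V} (h₁ : IsQuadN Q N₁) (h₂ : IsQuadN Q N₂)
    (hd : finrank F (LinearMap.range N₁) = finrank F (LinearMap.range N₂))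
    (hty : (∀ x, polar Q x (N₁ x) = 0) ↔ (∀ x, polar Q x (N₂ x) = 0)) :
    ∃ h : V ≃ₗ[F] V, (∀ x, Q (h x) = Q x) ∧ ∀ x, h (N₁ x) = N₂ (h x) := by
  obtain ⟨g₁, hg₁⟩ := exists_form h₁.adj
  obtain ⟨g₂, hg₂⟩ := exists_form h₂.adj
  have hA := polar_isAlt Q
  have hsym := symm_of_alt (B := polarBilin Q) hA
  have hs₁ := form_symm hsym h₁.adj hg₁
  have hs₂ := form_symm hsym h₂.adj hg₂
  have hsep₁ := form_sep hQ.1 h₁.adj hg₁
  have hsep₂ := form_sep hQ.1 h₂.adj hg₂
  have hnd₁ : g₁.Nondegenerate := ⟨hsep₁, fun y hy => hsep₁ y fun x => (hs₁ y x).trans (hy x)⟩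
  have hnd₂ : g₂.Nondegenerate := ⟨hsep₂, fun y hy => hsep₂ y fun x => (hs₂ y x).trans (hy x)⟩
  have halt₁ := form_isAlt_iff hg₁
  have halt₂ := form_isAlt_iff hg₂
  have hι : ∃ ι : LinearMap.range N₁ ≃ₗ[F] LinearMap.range N₂, ∀ u v, g₂ (ι u) (ι v) = g₁ u v := by
    by_cases hT : ∀ x, polarBilin Q x (N₁ x) = 0
    · exact exists_equiv_of_alt (halt₁.2 hT) (halt₂.2 (hty.1 hT)) hsep₁ hsep₂ hd
    · have hT' : ¬ ∀ x, polarBilin Q x (N₂ x) = 0 := fun h => hT (hty.2 h)
      refine exists_equiv_of_nonalt ⟨hs₁⟩ ⟨hs₂⟩ hnd₁ hnd₂ ?_ ?_ hd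
      · by_contra hc
        push Not at hc
        exact hT (halt₁.1 hc)
      · by_contra hc
        push Not at hc
        exact hT' (halt₂.1 hc)
  obtain ⟨ι, hι⟩ := hι
  obtain ⟨h, hQh, hL⟩ := Cfsg.Agent.S0750.result Q hQ _ _ ι (fun x => by
    rw [Q_eq_form h₂ hg₂, Q_eq_form h₁ hg₁, hι])
  refine ⟨h, hQh, fun x => ?_⟩
  have hiso : ∀ a b, polar Q (h a) (h b) = polar Q a b := by
    intro a b
    simp only [polar, ← map_add, hQh]
  have key : (N₂.rangeRestrict (h x) : LinearMap.range N₂) = ι (N₁.rangeRestrict x) := by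
    have h5 := hsep₂ (N₂.rangeRestrict (h x) - ι (N₁.rangeRestrict x)) ?_
    · exact sub_eq_zero.1 h5
    · intro v
      obtain ⟨w, rfl⟩ := ι.surjective v
      rw [map_sub, LinearMap.sub_apply, hι, hg₁, hg₂, ← hL, polarBilin_apply_apply, polarBilin_apply_apply, hiso, sub_self]
  have := congrArg Subtype.val key
  exact (hL (N₁.rangeRestrict x)).trans this.symm

end Abstract

section Mat

open Cfsg.Agent.Lib.Classical.Orth.Basic

variable {ι : Type} [Fintype ι] [DecidableEq ι] {F : Type*} [Field F]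
variable {Q : QuadraticForm F (ι → F)}

/-- The map `x ↦ (g - 1) x`. -/
noncomputable abbrev nM (g : ↥(Cfsg.isometryGroup F (⇑Q))) : (ι → F) →ₗ[F] (ι → F) :=
  (((g : GL ι F) : Matrix ι ι F) - 1).mulVecLin

theorem nM_apply (g : ↥(Cfsg.isometryGroup F (⇑Q))) (x : ι → F) : nM g x = act g x - x := by
  simp [nM, sub_mulVec]

theorem rank_eq_finrank (g : ↥(Cfsg.isometryGroup F (⇑Q))) :
    (((g : GL ι F) : Matrix ι ι F) - 1).rank = finrank F (LinearMap.range (nM g)) := rfl

theorem act_act_of_sq {t : ↥(Cfsg.isometryGroup F (⇑Q))} (ht : t * t = 1) (x : ι → F) :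
    act t (act t x) = x := by
  rw [← act_mul, ht, act_one]

variable [CharP F 2]

omit [Fintype ι] [DecidableEq ι] in
theorem add_self_zero (x : ι → F) : x + x = 0 := by
  ext i
  simp only [Pi.add_apply, Pi.zero_apply]
  rw [← two_mul, two_eq_zero' F, zero_mul]

theorem isQuadN_nM {t : ↥(Cfsg.isometryGroup F (⇑Q))} (ht : t * t = 1) : IsQuadN Q (nM t) := by
  have h2 : (2 : F) = 0 := two_eq_zero' F
  have hneg : ∀ a : F, - a = a := fun a => by
    linear_combination (-1 : F) * a * h2
  refine ⟨⟨fun x y => ?_, fun x => ?_⟩, fun x => ?_⟩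
  · rw [nM_apply, nM_apply]
    simp only [polarBilin_apply_apply, polar_sub_left, polar_sub_right]
    have : polar Q (act t x) y = polar Q x (act t y) := by
      rw [← polar_act t x (act t y), act_act_of_sq ht]
    rw [this]
  · rw [nM_apply, nM_apply, act_sub, act_act_of_sq ht]
    ext i
    simp only [Pi.sub_apply, Pi.zero_apply]
    have h3 : x i + x i = 0 := by
      rw [← two_mul, h2, zero_mul]
    have h4 : act t x i + act t x i = 0 := by
      rw [← two_mul, h2, zero_mul]
    linear_combination h3 - h4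
  · rw [nM_apply, Q_sub, Q_act, polar_sub_right, polar_self_eq, polar_comm]
    rw [h2, zero_mul, sub_zero]
    have : Q x + Q x = 0 := by
      rw [← two_mul, h2, zero_mul]
    linear_combination this - (polar (⇑Q) x (act t x)) * h2

theorem polar_nM (t : ↥(Cfsg.isometryGroup F (⇑Q))) (x : ι → F) :
    polar Q x (nM t x) = polar Q x (act t x) := by
  rw [nM_apply, polar_sub_right, polar_self_eq, two_eq_zero' F, zero_mul, sub_zero]

/-- Conjugacy in `O(Q)` from rank and type. -/
theorem isConj_of_type [Finite F] (hQ : (polarBilin Q).Nondegenerate) (t s : ↥(Cfsg.isometryGroup F (⇑Q)))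
    (ht : t * t = 1) (hs : s * s = 1)
    (hr : (((t : GL ι F) : Matrix ι ι F) - 1).rank = (((s : GL ι F) : Matrix ι ι F) - 1).rank)
    (hty : (∀ x, polar Q x (act t x) = 0) ↔ (∀ x, polar Q x (act s x) = 0)) :
    IsConj t s := by
  classical
  obtain ⟨h, hQh, hconj⟩ := conj_quad_of_type hQ (isQuadN_nM ht) (isQuadN_nM hs) hr
    (by simpa only [polar_nM] using hty)
  let c : ↥(Cfsg.isometryGroup F (⇑Q)) := ⟨Cfsg.Agent.Lib.Linalg.Bridge.glOfEquiv h,
    (mem_isometryGroup_iff Q _).2 (fun x => by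
      rw [Cfsg.Agent.Lib.Linalg.Bridge.glOfEquiv_mulVec, hQh])⟩
  have hc : ∀ x, act c x = h x := fun x => Cfsg.Agent.Lib.Linalg.Bridge.glOfEquiv_mulVec h x
  rw [isConj_iff]
  refine ⟨c, ?_⟩
  rw [mul_inv_eq_iff_eq_mul]
  apply ext_act
  intro x
  rw [act_mul, act_mul, hc, hc]
  have := hconj x
  rw [nM_apply, nM_apply, map_sub, sub_left_inj] at this
  exact this

omit [CharP F 2] in
/-- Conjugation in `GL` preserves the rank of `g - 1`. -/
theorem rank_eq_of_conj {g t s : GL ι F} (h : g * t * g⁻¹ = s) :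
    ((t : Matrix ι ι F) - 1).rank = ((s : Matrix ι ι F) - 1).rank := by
  have e : ((s : Matrix ι ι F) - 1) = (g : Matrix ι ι F) * ((t : Matrix ι ι F) - 1) * ((g⁻¹ : GL ι F) : Matrix ι ι F) := by
    have hg : (g : Matrix ι ι F) * ((g⁻¹ : GL ι F) : Matrix ι ι F) = 1 := by
      rw [← Units.val_mul, mul_inv_cancel, Units.val_one]
    rw [← h]
    simp only [Units.val_mul, Matrix.mul_sub, Matrix.sub_mul, Matrix.mul_one, hg]
  rw [e, Matrix.rank_mul_eq_left_of_isUnit_det _ _ ((Matrix.isUnit_iff_isUnit_det _).1 (Units.isUnit _)),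
    Matrix.rank_mul_eq_right_of_isUnit_det _ _ ((Matrix.isUnit_iff_isUnit_det _).1 (Units.isUnit _))]

/-- Conjugate in `O(Q)` iff conjugate under the isometry group of the polar form. -/
theorem isConj_iff_exists_polar [Finite F] (hQ : (polarBilin Q).Nondegenerate)
    (t s : ↥(Cfsg.isometryGroup F (⇑Q))) (ht : t * t = 1) (hs : s * s = 1) :
    IsConj t s ↔ ∃ g ∈ Cfsg.preserving (Units.coeHom (Matrix ι ι F))
      (fun u v => Q (u + v) - Q u - Q v), g * (t : GL ι F) * g⁻¹ = (s : GL ι F) := by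
  constructor
  · intro h
    obtain ⟨c, rfl⟩ := isConj_iff.1 h
    refine ⟨c, ?_, rfl⟩
    intro u v
    have := polar_act c u v
    simpa [polar, act] using this
  · rintro ⟨g, hg, hgs⟩
    have hpres : ∀ x y, polar Q ((g : Matrix ι ι F) *ᵥ x) ((g : Matrix ι ι F) *ᵥ y) = polar Q x y := hg
    apply isConj_of_type hQ t s ht hs (rank_eq_of_conj hgs)
    have hact : ∀ x, act s ((g : Matrix ι ι F) *ᵥ x) = (g : Matrix ι ι F) *ᵥ act t x := by
      intro x
      have h1 : (g : Matrix ι ι F) * ((t : GL ι F) : Matrix ι ι F) = ((s : GL ι F) : Matrix ι ι F) * (g : Matrix ι ι F) := by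
        rw [← Units.val_mul, ← Units.val_mul, ← hgs]
        congr 1
        group
      simp only [act, mulVec_mulVec, h1]
    constructor
    · intro h x
      have hgi : (g : Matrix ι ι F) *ᵥ (((g⁻¹ : GL ι F) : Matrix ι ι F) *ᵥ x) = x := by
        rw [mulVec_mulVec, ← Units.val_mul, mul_inv_cancel, Units.val_one, one_mulVec]
      rw [← hgi, hact, hpres]
      exact h _
    · intro h x
      rw [← hpres, ← hact]
      exact h _

end Mat

end Cfsg.Agent.Lib.Classical.Witt.InvolChar2
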