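import Mathlib
import Cfsg.Agent.Lib.Classical.Witt.InvolChar2
import Cfsg.Agent.Lib.Classical.Witt.Index
import Cfsg.Agent.Lib.Classical.Orth.Models

/-!
# Splitting of involution classes from `O(Q)` to `Ω(Q)` in characteristic two
-/

set_option autoImplicit false

namespace Cfsg.Agent.Lib.Classical.Witt.InvolChar2Omega

open Module QuadraticMap Matrix
open Cfsg.Agent.Lib.Classical.Orth.Basic Cfsg.Agent.Lib.Classical.Orth.Dickson
open Cfsg.Agent.Lib.Classical.Orth.DicksonRank Cfsg.Agent.Lib.Classical.Orth.Classes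
open Cfsg.Agent.Lib.Classical.Witt.InvolChar2 Cfsg.Agent.Lib.Classical.Witt.TS
open Cfsg.Agent.Lib.Classical.Symp.InvolChar2

variable {ι : Type} [Fintype ι] [DecidableEq ι] {F : Type*} [Field F] [Fintype F] [CharP F 2]
variable {Q : QuadraticForm F (ι → F)}

/-- A reflection in a fixed vector outside `Ω` moves any conjugator into `Ω`. -/
theorem omega_conj_of_refl (hQ : (polarBilin Q).Nondegenerate)
    (hF : (∃ c : F, c ≠ 0 ∧ c ≠ 1) ∨ Fintype.card ι ≠ 4) {t s g : ↥(Cfsg.isometryGroup F (⇑Q))}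
    (hg : g * t * g⁻¹ = s) {v : ι → F} (hv : Q v ≠ 0) (htv : act t v = v) :
    ∃ g' ∈ Cfsg.Omega F (⇑Q), g' * t * g'⁻¹ = s := by
  by_cases hgO : g ∈ Cfsg.Omega F (⇑Q)
  · exact ⟨g, hgO, hg⟩
  · refine ⟨g * reflectionIso Q v hv, ?_, ?_⟩
    · rw [mem_omega_iff_char_two hQ hF] at hgO ⊢
      rw [map_mul, dicksonHom_reflection]
      rcases Int.units_eq_one_or (dicksonHom hQ hF g) with h5 | h5
      · exact absurd h5 hgO
      · rw [h5]
        rfl
    · have hcomm : reflectionIso Q v hv * t = t * reflectionIso Q v hv := by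
        have h1 := conj_reflectionIso t v hv
        have h2 : reflectionIso Q (act t v) (by rwa [Q_act]) = reflectionIso Q v hv := by
          apply ext_act
          intro x
          rw [reflectionIso_act, reflectionIso_act, htv]
        rw [h2] at h1
        exact (mul_inv_eq_iff_eq_mul.1 h1).symm
      rw [← hg, _root_.mul_inv_rev]
      calc g * reflectionIso Q v hv * t * ((reflectionIso Q v hv)⁻¹ * g⁻¹)
          = g * (reflectionIso Q v hv * t) * (reflectionIso Q v hv)⁻¹ * g⁻¹ := by group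
        _ = g * t * g⁻¹ := by rw [hcomm]; group

theorem finrank_range_add_ker (N : (ι → F) →ₗ[F] (ι → F)) :
    finrank F (LinearMap.range N) + finrank F (LinearMap.ker N) = Fintype.card ι := by
  rw [LinearMap.finrank_range_add_finrank_ker, Module.finrank_fintype_fun_eq_card]

/-- Minus type: an involution fixes a nonsingular vector. -/
theorem exists_fixed_minus {m : ℕ} (hm : 1 ≤ m) {c d : F}
    (hcd : ∀ z₁ z₂ : F, z₁ ^ 2 + c * z₁ * z₂ + d * z₂ ^ 2 = 0 → z₁ = 0 ∧ z₂ = 0)
    (t : ↥(Cfsg.isometryGroup F (⇑(Cfsg.Agent.Lib.Classical.Orth.Models.minusForm (m - 1) F c d))))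
    (ht : t * t = 1) : ∃ v, Cfsg.Agent.Lib.Classical.Orth.Models.minusForm (m - 1) F c d v ≠ 0 ∧ act t v = v := by
  by_contra hcon
  push Not at hcon
  have hN := isQuadN_nM ht
  have hts : ∀ w ∈ LinearMap.ker (nM t), Cfsg.Agent.Lib.Linalg.OrthModels.minusQ (m - 1) F c d w = 0 := by
    intro w hw
    rw [Cfsg.Agent.Lib.Linalg.OrthModels.minusQ_apply, ← Cfsg.Agent.Lib.Classical.Orth.Models.coe_minusForm_apply]
    by_contra hne
    apply hcon w hne
    have := LinearMap.mem_ker.1 hw
    rw [nM_apply] at this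
    exact sub_eq_zero.1 this
  have h1 := Cfsg.Agent.Lib.Classical.Witt.Index.finrank_le_of_ts_minus (m - 1) hcd _ hts
  have h2 := finrank_range_add_ker (nM t)
  have h3 := two_mul_finrank_range_le (Cfsg.Agent.Lib.Classical.Witt.Hyp.nondeg_of_polarNondeg _
    (Cfsg.Agent.Lib.Classical.Witt.Hyp.polarNondeg_of_nondeg _ (Cfsg.Agent.Lib.Classical.Orth.Models.minusForm_nondegenerate (m - 1) c d hcd))) hN.adj
  rw [Module.finrank_fintype_fun_eq_card] at h3
  simp only [Fintype.card_sum, Fintype.card_fin] at h2 h3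
  omega

/-- Plus type: an involution fixes a nonsingular vector unless the image of `t - 1` is a maximal
totally singular subspace. -/
theorem exists_fixed_plus {m : ℕ}
    (t : ↥(Cfsg.isometryGroup F (⇑(Cfsg.Agent.Lib.Classical.Orth.Models.plusForm m F))))
    (ht : t * t = 1)
    (hno : ¬ (((((t : GL (Fin m ⊕ Fin m) F) : Matrix (Fin m ⊕ Fin m) (Fin m ⊕ Fin m) F) - 1).rank = m) ∧
      ∀ v : Fin m ⊕ Fin m → F, Cfsg.Agent.Lib.Classical.Orth.Models.plusForm m F (v + act t v) = 0)) :
    ∃ v, Cfsg.Agent.Lib.Classical.Orth.Models.plusForm m F v ≠ 0 ∧ act t v = v := by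
  by_contra hcon
  push Not at hcon
  apply hno
  have hN := isQuadN_nM ht
  have hnd := Cfsg.Agent.Lib.Classical.Orth.Models.plusForm_nondegenerate (F := F) m
  have hts : IsTS (Cfsg.Agent.Lib.Classical.Orth.Models.plusForm m F) (LinearMap.ker (nM t)) := by
    intro w hw
    by_contra hne
    apply hcon w hne
    have := LinearMap.mem_ker.1 hw
    rw [nM_apply] at this
    exact sub_eq_zero.1 this
  have h1 := hts.two_mul_finrank_le (Cfsg.Agent.Lib.Classical.Witt.Hyp.polarNondeg_of_nondeg _ hnd)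
  have h2 := finrank_range_add_ker (nM t)
  have h3 := two_mul_finrank_range_le hnd hN.adj
  rw [Module.finrank_fintype_fun_eq_card] at h1 h3
  simp only [Fintype.card_sum, Fintype.card_fin] at h1 h2 h3
  have hle : LinearMap.range (nM t) ≤ LinearMap.ker (nM t) := by
    rintro _ ⟨x, rfl⟩
    exact hN.adj.sq x
  have hr : finrank F (LinearMap.range (nM t)) = m := by omega
  refine ⟨hr, fun v => ?_⟩
  have heq : LinearMap.range (nM t) = LinearMap.ker (nM t) :=
    Submodule.eq_of_le_of_finrank_eq hle (by omega)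
  have h5 : nM t v ∈ LinearMap.ker (nM t) := heq ▸ LinearMap.mem_range_self _ v
  have h6 := hts _ h5
  have e : v + act t v = nM t v := by
    rw [nM_apply, add_comm, sub_eq_add_neg]
    congr 1
    ext i
    simp only [Pi.neg_apply]
    have : v i + v i = 0 := by
      rw [← two_mul, two_eq_zero' F, zero_mul]
    linear_combination this
  rw [e]
  exact h6

/-- The image of `s - 1` is the image under `g` of the image of `t - 1`. -/
theorem range_conj {t s g : ↥(Cfsg.isometryGroup F (⇑Q))} (hg : g * t * g⁻¹ = s) :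
    LinearMap.range (nM s) = gMap g (LinearMap.range (nM t)) := by
  subst hg
  ext x
  rw [mem_gMap]
  constructor
  · rintro ⟨y, rfl⟩
    refine ⟨nM t (act g⁻¹ y), LinearMap.mem_range_self _ _, ?_⟩
    rw [nM_apply, nM_apply, act_sub, act_mul, act_mul, act_act_inv]
  · rintro ⟨_, ⟨y, rfl⟩, rfl⟩
    refine ⟨act g y, ?_⟩
    rw [nM_apply, nM_apply, act_sub, act_mul, act_mul, act_inv_act]

/-- The splitting criterion when `Im (t - 1)` is a maximal totally singular subspace. -/
theorem omega_conj_iff_even {m : ℕ} (hF : (∃ c : F, c ≠ 0 ∧ c ≠ 1) ∨ Fintype.card ι ≠ 4)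
    (hQ : (polarBilin Q).Nondegenerate) (hV : Fintype.card ι = 2 * m)
    {t s : ↥(Cfsg.isometryGroup F (⇑Q))} (htO : t ∈ Cfsg.Omega F (⇑Q))
    (hconj : IsConj t s) (hrank : finrank F (LinearMap.range (nM t)) = m)
    (hts : ∀ v, Q (nM t v) = 0) :
    (∃ g ∈ Cfsg.Omega F (⇑Q), g * t * g⁻¹ = s) ↔
      Even (finrank F ↥(LinearMap.range (nM t) ⊓ LinearMap.range (nM s))) := by
  have hU : IsTS Q (LinearMap.range (nM t)) := by
    rintro _ ⟨x, rfl⟩
    exact hts x
  have hmeven : Even m := by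
    have := (mem_omega_iff_rank_even hQ hF t).1 htO
    rwa [rank_eq_finrank, hrank] at this
  have key : ∀ g : ↥(Cfsg.isometryGroup F (⇑Q)), g * t * g⁻¹ = s →
      (g ∈ Cfsg.Omega F (⇑Q) ↔ Even (finrank F ↥(LinearMap.range (nM t) ⊓ LinearMap.range (nM s)))) := by
    intro g hg
    have h1 := class_iff_omega hQ hF hV hU hrank g
    rw [← h1, range_conj hg]
    have hle : finrank F ↥(LinearMap.range (nM t) ⊓ gMap g (LinearMap.range (nM t))) ≤ m := by
      rw [← hrank]
      exact Submodule.finrank_mono inf_le_left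
    rw [Nat.even_sub hle]
    simp [hmeven]
  constructor
  · rintro ⟨g, hgO, hg⟩
    exact (key g hg).1 hgO
  · intro h
    obtain ⟨g, hg⟩ := isConj_iff.1 hconj
    exact ⟨g, (key g hg).2 h, hg⟩

end Cfsg.Agent.Lib.Classical.Witt.InvolChar2Omega
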